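import Cfsg.Agent.FGS75.SelfNorm.Order

/-!
The class equation: `|A| = p + 1` and `|G : N| = p + 2`.
-/

set_option autoImplicit false

open scoped commutatorElement

namespace Cfsg.Agent.FGS75.SelfNorm

universe u

variable {G : Type u} [Group G] [Finite G] [IsSimpleGroup G] {A N : Subgroup G} {p : ℕ}
variable (h : Ctx A N p)
include h

omit [IsSimpleGroup G] h in
theorem commute_of_inverts_involution {u x : G} (hu : orderOf u = 2) (hinv : u * x * u⁻¹ = x⁻¹)
    (hc : u * (u * x) = (u * x) * u) : x * x = 1 := by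
  have h1 : x = u * x * u := by
    calc x = (u * u) * x := by rw [TwoFusion.involution_mul_self hu, one_mul]
      _ = u * x * u := by rw [mul_assoc, hc]
  nth_rewrite 1 [inv_of_involution hu] at hinv
  rw [← h1] at hinv
  nth_rewrite 2 [hinv]
  exact mul_inv_cancel x

/-- The cosets other than `N` correspond to `a` copies of the fixed cosets of an element of
order `p`. -/
theorem Ctx.index_eq {k : G} (hk : k ∈ N) (hkA : k ∉ A) :
    ∃ j : ℕ, Nat.card (Subgroup.centralizer ({k} : Set G)) = p * j ∧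
      N.index = 1 + Nat.card A * (2 * j - 1) ∧ 1 ≤ j := by
  classical
  haveI : Fintype G := Fintype.ofFinite G
  haveI : Fintype (G ⧸ N) := Fintype.ofFinite _
  set T := Subgroup.centralizer ({k} : Set G) with hT
  have hsame : ∀ x, x ∈ N → x ∉ A → Nat.card (Subgroup.centralizer ({x} : Set G)) = Nat.card T := by
    intro x hx hxA
    obtain ⟨a, -, i, hi⟩ := h.exists_conj_pow hk hkA hx
    rcases hi with hi | rfl
    · exact absurd hi hxA
    obtain ⟨⟨hk1, hko, u, hu, hinv⟩, -⟩ := h.isReal_of_mem hk hkA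
    rw [card_cent_conj, h.real_cent_eq hk1 hko hu hinv
      (zpow_mem (Subgroup.mem_centralizer_singleton_iff.mpr rfl) i)
      (fun e => hxA (by rw [e]; simpa using one_mem A))]
  set f := Nat.card {C : G ⧸ N // k • C = C} with hf
  have hfp : f * p = 2 * Nat.card T := h.card_fixed hk hkA
  set X : Finset G := Finset.univ.filter fun x => x ∈ N ∧ x ∉ A with hX
  set Q : Finset (G ⧸ N) := Finset.univ.erase ((1 : G) : G ⧸ N) with hQ
  have hXmem : ∀ x, x ∈ X ↔ x ∈ N ∧ x ∉ A := fun x => by simp [hX]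
  have hQmem : ∀ C, C ∈ Q ↔ C ≠ ((1 : G) : G ⧸ N) := fun C => by simp [hQ]
  have hbase : ∀ x ∈ N, x • ((1 : G) : G ⧸ N) = ((1 : G) : G ⧸ N) := fun x hx => by
    rw [MulAction.Quotient.smul_mk, smul_eq_mul, mul_one, QuotientGroup.eq, mul_one]
    exact inv_mem hx
  -- count by elements
  have hcol : ∀ x ∈ X, (Q.filter fun C => x • C = C).card = f - 1 := by
    intro x hx
    obtain ⟨hxN, hxA⟩ := (hXmem x).mp hx
    have h1 : (Q.filter fun C => x • C = C) =
        (Finset.univ.filter fun C : G ⧸ N => x • C = C).erase ((1 : G) : G ⧸ N) := by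
      ext C
      simp [hQ, and_comm]
    rw [h1, Finset.card_erase_of_mem (by simp [hbase x hxN])]
    have h2 : Nat.card {C : G ⧸ N // x • C = C} = f := by
      refine Nat.eq_of_mul_eq_mul_right h.data.prime.pos ?_
      rw [h.card_fixed hxN hxA, hsame x hxN hxA, hfp]
    rw [← h2, Nat.card_eq_fintype_card, Fintype.card_subtype]
  -- count by cosets
  have hrow : ∀ C ∈ Q, (X.filter fun x => x • C = C).card = p - 1 := by
    intro C hC
    rw [hQmem] at hC
    induction C using QuotientGroup.induction_on with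
    | H g =>
      have hg : g ∉ N := fun hg => hC (by rw [QuotientGroup.eq, mul_one]; exact inv_mem hg)
      obtain ⟨hcard, hL⟩ := h.inter hg
      have hfix : ∀ x : G, x • (g : G ⧸ N) = (g : G ⧸ N) ↔ x ∈ N.map (MulAut.conj g).toMonoidHom := by
        intro x
        rw [MulAction.Quotient.smul_mk, smul_eq_mul, QuotientGroup.eq]
        constructor
        · intro hx
          refine ⟨((x * g)⁻¹ * g)⁻¹, inv_mem hx, ?_⟩
          show g * ((x * g)⁻¹ * g)⁻¹ * g⁻¹ = x
          group
        · rintro ⟨n, hn, rfl⟩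
          show ((g * n * g⁻¹) * g)⁻¹ * g ∈ N
          rw [show ((g * n * g⁻¹) * g)⁻¹ * g = n⁻¹ by group]
          exact inv_mem hn
      have h1 : (X.filter fun x => x • (g : G ⧸ N) = (g : G ⧸ N)) =
          (Finset.univ.filter fun x => x ∈ N ⊓ N.map (MulAut.conj g).toMonoidHom).erase 1 := by
        ext x
        simp only [Finset.mem_filter, Finset.mem_erase, Finset.mem_univ, true_and, hXmem, hfix,
          Subgroup.mem_inf]
        refine ⟨fun hx => ⟨fun e => hx.1.2 (e ▸ one_mem A), hx.1.1, hx.2⟩, fun hx => ?_⟩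
        exact ⟨⟨hx.2.1, fun hA => hx.1 (hL x ⟨hx.2.1, hx.2.2⟩ hA)⟩, hx.2.2⟩
      rw [h1, Finset.card_erase_of_mem (by simp [one_mem]), ← hcard]
      congr 1
      exact ((Nat.card_eq_fintype_card).trans
        (Fintype.card_of_subtype _ (fun x => by simp))).symm
  have hdc : ∑ x ∈ X, (Q.filter fun C => x • C = C).card =
      ∑ C ∈ Q, (X.filter fun x => x • C = C).card :=
    Finset.sum_card_bipartiteAbove_eq_sum_card_bipartiteBelow (fun x C => x • C = C)
  rw [Finset.sum_congr rfl hcol, Finset.sum_congr rfl hrow, Finset.sum_const, Finset.sum_const,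
    smul_eq_mul, smul_eq_mul] at hdc
  have hQcard : Q.card = N.index - 1 := by
    rw [hQ, Finset.card_erase_of_mem (Finset.mem_univ _), Finset.card_univ,
      ← Nat.card_eq_fintype_card, ← Subgroup.index_eq_card]
  have hXcard : X.card = (p - 1) * Nat.card A := by
    have h1 : (X : Set G) = (N : Set G) \ (A : Set G) := by
      ext x; simp [hX]
    rw [← Set.ncard_coe_finset, h1, Set.ncard_sdiff h.data.a_le, ← Nat.card_coe_set_eq,
      ← Nat.card_coe_set_eq, SetLike.coe_sort_coe, SetLike.coe_sort_coe, h.card_n, Nat.sub_one_mul]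
  rw [hXcard, hQcard, mul_comm (N.index - 1), mul_assoc] at hdc
  have hp1 : 0 < p - 1 := by have := h.data.three_le; omega
  have hdc' := Nat.eq_of_mul_eq_mul_left hp1 hdc
  -- `f` is even
  obtain ⟨j, hj⟩ : 2 ∣ f := by
    refine (Nat.Coprime.dvd_of_dvd_mul_right ?_ (hfp ▸ dvd_mul_right 2 _))
    exact Nat.coprime_two_left.mpr h.data.odd
  have hj1 : 1 ≤ j := by
    rcases Nat.eq_zero_or_pos j with h0 | h0
    · exfalso
      rw [hj, h0, mul_zero, zero_mul] at hfp
      have := Nat.card_pos (α := T)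
      omega
    · exact h0
  refine ⟨j, ?_, ?_, hj1⟩
  · rw [hj] at hfp
    nlinarith [hfp]
  · rw [hj] at hdc'
    have hpos : N.index ≠ 0 := Subgroup.index_ne_zero_of_finite
    omega

/-- The number of elements of odd order inverted by an involution. -/
theorem Ctx.card_inverted {u : G} (hu : orderOf u = 2) :
    Nat.card {x : G // IsReal x ∧ u * x * u⁻¹ = x⁻¹} = p * (N.index - 1) := by
  classical
  haveI : Fintype G := Fintype.ofFinite G
  obtain ⟨g, hg⟩ := h.cent_conj hu
  have e1 : Nat.card {x : G // IsReal x ∧ u * x * u⁻¹ = x⁻¹} =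
      Nat.card {v : G // orderOf v = 2 ∧ v * u ≠ u * v} := by
    refine Nat.card_congr
      { toFun := fun x => ⟨u * x.1, ?_, ?_⟩
        invFun := fun v => ⟨u * v.1, ?_, ?_⟩
        left_inv := fun x => Subtype.ext ?_
        right_inv := fun v => Subtype.ext ?_ }
    · obtain ⟨y, ⟨hx1, hxo, -⟩, hinv⟩ := x
      refine orderOf_eq_prime ?_ fun e => ?_
      · rw [sq]
        show u * y * (u * y) = 1
        calc u * y * (u * y) = (u * y * u⁻¹) * y := by rw [inv_of_involution hu]; group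
          _ = 1 := by rw [hinv, inv_mul_cancel]
      · have hxu : y = u := (eq_inv_of_mul_eq_one_right e).trans (inv_of_involution hu)
        rw [hxu, hu] at hxo
        exact absurd hxo (by decide)
    · obtain ⟨y, ⟨hx1, hxo, -⟩, hinv⟩ := x
      intro e
      have hxx := commute_of_inverts_involution hu hinv e.symm
      rcases (Nat.dvd_prime Nat.prime_two).mp
        (orderOf_dvd_of_pow_eq_one (x := y) (n := 2) (by rw [sq]; exact hxx)) with h1 | h1
      · exact hx1 (orderOf_eq_one_iff.mp h1)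
      · rw [h1] at hxo; exact absurd hxo (by decide)
    · obtain ⟨hv, hvu⟩ := v.2
      have hinv : u * (u * v.1) * u⁻¹ = (u * v.1)⁻¹ := by
        rw [mul_inv_rev, inv_of_involution hv, inv_of_involution hu, ← mul_assoc,
          TwoFusion.involution_mul_self hu, one_mul]
      refine ⟨fun e => hvu ?_, ?_, u, hu, hinv⟩
      · rw [eq_inv_of_mul_eq_one_right e, inv_of_involution hu]
      · by_contra ho
        obtain ⟨z, hz1, hzz, hzu, hzv⟩ := RankOne.exists_central_of_even
          (TwoFusion.involution_mul_self hu) (TwoFusion.involution_mul_self hv)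
          (Nat.not_odd_iff_even.mp ho)
        have hzo : orderOf z = 2 := orderOf_eq_prime (by rw [sq]; exact hzz) hz1
        exact hvu (comm_apply (centralizer_involution_comm h.sn h.na h.even hzo)
          (Subgroup.mem_centralizer_singleton_iff.mpr hzv.symm)
          (Subgroup.mem_centralizer_singleton_iff.mpr hzu.symm))
    · obtain ⟨hv, -⟩ := v.2
      rw [mul_inv_rev, inv_of_involution hv, inv_of_involution hu, ← mul_assoc,
        TwoFusion.involution_mul_self hu, one_mul]
    · show u * (u * x.1) = x.1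
      rw [← mul_assoc, TwoFusion.involution_mul_self hu, one_mul]
    · show u * (u * v.1) = v.1
      rw [← mul_assoc, TwoFusion.involution_mul_self hu, one_mul]
  rw [e1, ← Set.coe_setOf, Nat.card_coe_set_eq]
  have h2 : {v : G | orderOf v = 2 ∧ v * u ≠ u * v} =
      {v : G | orderOf v = 2} \ {v : G | orderOf v = 2 ∧ v * u = u * v} := by
    ext v
    simp only [Set.mem_diff, Set.mem_setOf_eq]
    tauto
  have h3 : {v : G | orderOf v = 2 ∧ v * u = u * v}.ncard = p := by
    rw [← h.data.card_inv]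
    refine Set.ncard_congr (fun v _ => g⁻¹ * v * g) (fun v hv => ?_) (fun v w _ _ e => ?_)
      (fun s hs => ⟨g * s * g⁻¹, ⟨?_, ?_⟩, by group⟩)
    · refine ⟨(hg v).mp (Subgroup.mem_centralizer_singleton_iff.mpr hv.2), ?_⟩
      rw [show g⁻¹ * v * g = g⁻¹ * v * g⁻¹⁻¹ by rw [inv_inv], orderOf_conj_eq]
      exact hv.1
    · exact mul_left_cancel (mul_right_cancel e)
    · rw [orderOf_conj_eq]; exact hs.2
    · exact Subgroup.mem_centralizer_singleton_iff.mp ((hg _).mpr (by
        rw [show g⁻¹ * (g * s * g⁻¹) * g = s by group]; exact hs.1))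
  rw [h2, Set.ncard_sdiff (fun v hv => hv.1), h3, h.data.card_involutions, Nat.mul_sub, mul_one]

/-- The sum of the orders of the centralizers of the real elements of odd order. -/
theorem Ctx.sum_cent [Fintype G] [DecidablePred (IsReal (G := G))] :
    ∑ x ∈ Finset.univ.filter (IsReal (G := G)), Nat.card (Subgroup.centralizer ({x} : Set G)) =
      p * N.index * (p * (N.index - 1)) := by
  classical
  set R : Finset G := Finset.univ.filter (IsReal (G := G)) with hR
  set I : Finset G := Finset.univ.filter fun u => orderOf u = 2 with hI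
  have hRmem : ∀ x, x ∈ R ↔ IsReal x := fun x => by simp [hR]
  have hIcard : I.card = p * N.index := by
    rw [← h.data.card_involutions, ← Set.ncard_coe_finset]
    congr 1
    ext u; simp [hI]
  have hcol : ∀ x ∈ R, (I.filter fun u => u * x * u⁻¹ = x⁻¹).card =
      Nat.card (Subgroup.centralizer ({x} : Set G)) := by
    intro x hx
    rw [hRmem] at hx
    obtain ⟨hx1, hxo, u, hu, hinv⟩ := hx
    obtain ⟨-, ho, hi⟩ := h.real_facts hx1 hxo hu hinv
    rw [← Fintype.card_coe, ← Nat.card_eq_fintype_card]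
    refine Nat.card_congr
      { toFun := fun v => ⟨u * v.1, ?_⟩
        invFun := fun z => ⟨u * z.1, ?_⟩
        left_inv := fun v => Subtype.ext ?_
        right_inv := fun z => Subtype.ext ?_ }
    · obtain ⟨v, hv⟩ := v
      simp only [hI, Finset.mem_filter, Finset.mem_univ, true_and] at hv
      rw [Subgroup.mem_centralizer_singleton_iff]
      show u * v * x = x * (u * v)
      calc u * v * x = u * (v * x * v⁻¹) * v := by group
        _ = (u * x * u⁻¹)⁻¹ * (u * v) := by rw [hv.2]; group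
        _ = x * (u * v) := by rw [hinv, inv_inv]
    · simp only [hI, Finset.mem_filter, Finset.mem_univ, true_and]
      refine ⟨orderOf_eq_prime ?_ fun e => ?_, ?_⟩
      · rw [sq]
        calc u * z.1 * (u * z.1) = (u * z.1 * u⁻¹) * z.1 := by rw [inv_of_involution hu]; group
          _ = 1 := by rw [hi _ z.2, inv_mul_cancel]
      · have hzu : z.1 = u := by rw [← inv_of_involution hu]; exact eq_inv_of_mul_eq_one_right e
        have := ho.of_dvd_nat (Subgroup.orderOf_dvd_natCard _ z.2)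
        rw [hzu, hu] at this
        exact absurd this (by decide)
      · calc u * z.1 * x * (u * z.1)⁻¹ = u * (z.1 * x) * z.1⁻¹ * u⁻¹ := by group
          _ = u * (x * z.1) * z.1⁻¹ * u⁻¹ := by rw [Subgroup.mem_centralizer_singleton_iff.mp z.2]
          _ = u * x * u⁻¹ := by group
          _ = x⁻¹ := hinv
    · show u * (u * v.1) = v.1
      rw [← mul_assoc, TwoFusion.involution_mul_self hu, one_mul]
    · show u * (u * z.1) = z.1
      rw [← mul_assoc, TwoFusion.involution_mul_self hu, one_mul]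
  have hrow : ∀ u ∈ I, (R.filter fun x => u * x * u⁻¹ = x⁻¹).card = p * (N.index - 1) := by
    intro u hu
    simp only [hI, Finset.mem_filter, Finset.mem_univ, true_and] at hu
    rw [← h.card_inverted hu, Nat.card_eq_fintype_card, Fintype.card_subtype]
    congr 1
    ext x
    simp [hR]
  have hdc : ∑ x ∈ R, (I.filter fun u => u * x * u⁻¹ = x⁻¹).card =
      ∑ u ∈ I, (R.filter fun x => u * x * u⁻¹ = x⁻¹).card :=
    Finset.sum_card_bipartiteAbove_eq_sum_card_bipartiteBelow
      (fun x u => u * x * u⁻¹ = x⁻¹)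
  rw [Finset.sum_congr rfl hcol, Finset.sum_congr rfl hrow, Finset.sum_const, smul_eq_mul,
    hIcard] at hdc
  exact hdc

/-- The elements conjugate into the centralizer of a real element. -/
theorem Ctx.class_facts {x : G} (hx : IsReal x) :
    Nat.card (conjSet (Subgroup.centralizer ({x} : Set G))) *
        (2 * Nat.card (Subgroup.centralizer ({x} : Set G))) =
      Nat.card G * (Nat.card (Subgroup.centralizer ({x} : Set G)) - 1) ∧
    3 ≤ Nat.card (Subgroup.centralizer ({x} : Set G)) ∧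
    x ∈ conjSet (Subgroup.centralizer ({x} : Set G)) ∧
    ∀ y ∈ conjSet (Subgroup.centralizer ({x} : Set G)), IsReal y ∧
      Nat.card (Subgroup.centralizer ({y} : Set G)) = Nat.card (Subgroup.centralizer ({x} : Set G)) ∧
      ∀ x' : G, IsReal x' → y ∈ conjSet (Subgroup.centralizer ({x'} : Set G)) →
        x' ∈ conjSet (Subgroup.centralizer ({x} : Set G)) := by
  obtain ⟨hx1, hxo, u, hu, hinv⟩ := hx
  set T := Subgroup.centralizer ({x} : Set G) with hT
  obtain ⟨-, ho, hi⟩ := h.real_facts hx1 hxo hu hinv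
  have hxT : x ∈ T := Subgroup.mem_centralizer_singleton_iff.mpr rfl
  have hcz : ∀ z ∈ T, z ≠ 1 → Subgroup.centralizer ({z} : Set G) = T := fun z hz hz1 =>
    h.real_cent_eq hx1 hxo hu hinv hz hz1
  refine ⟨?_, ?_, ⟨1, x, hxT, hx1, by group⟩, ?_⟩
  · rw [← h.real_normalizer hx1 hxo hu hinv]
    refine card_conjSet T _ (fun g z hz hz1 hgz => mem_normalizer_of_conj fun c hc => ?_)
      (fun m hm z hz => (Subgroup.mem_normalizer_iff.mp hm z).mp hz)
    have hne : g * z * g⁻¹ ≠ 1 := fun e => hz1 (by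
      calc z = g⁻¹ * (g * z * g⁻¹) * g := by group
        _ = 1 := by rw [e]; group)
    show g * c * g⁻¹ ∈ T
    rw [← hcz _ hgz hne, mem_cent_conj_iff, hcz z hz hz1,
      show g⁻¹ * (g * c * g⁻¹) * g = c by group]
    exact hc
  · have h1 : 1 < Nat.card T := by
      rw [Finite.one_lt_card_iff_nontrivial]
      exact ⟨⟨⟨x, hxT⟩, 1, fun e => hx1 (congrArg Subtype.val e)⟩⟩
    obtain ⟨m, hm⟩ := ho
    rw [← hT] at *
    omega
  · rintro _ ⟨g, z, hz, hz1, rfl⟩
    have hzo : Odd (orderOf z) := ho.of_dvd_nat (Subgroup.orderOf_dvd_natCard _ hz)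
    refine ⟨⟨fun e => hz1 ?_, by rwa [orderOf_conj_eq], g * u * g⁻¹, by rw [orderOf_conj_eq, hu], ?_⟩,
      ?_, ?_⟩
    · calc z = g⁻¹ * (g * z * g⁻¹) * g := by group
        _ = 1 := by rw [e]; group
    · calc g * u * g⁻¹ * (g * z * g⁻¹) * (g * u * g⁻¹)⁻¹ = g * (u * z * u⁻¹) * g⁻¹ := by group
        _ = (g * z * g⁻¹)⁻¹ := by rw [hi z hz]; group
    · rw [card_cent_conj, hcz z hz hz1]
    · rintro x' ⟨hx'1, hxo', u', hu', hinv'⟩ ⟨g', z', hz', hz'1, e⟩
      refine ⟨g'⁻¹ * g, g⁻¹ * g' * x' * g'⁻¹ * g, ?_, fun e' => hx'1 ?_, by group⟩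
      · have hx'c : x' ∈ Subgroup.centralizer ({z'} : Set G) := by
          rw [h.real_cent_eq hx'1 hxo' hu' hinv' hz' hz'1]
          exact Subgroup.mem_centralizer_singleton_iff.mpr rfl
        have h1 : g' * x' * g'⁻¹ ∈ Subgroup.centralizer ({g * z * g⁻¹} : Set G) := by
          rw [← e, mem_cent_conj_iff]
          rwa [show g'⁻¹ * (g' * x' * g'⁻¹) * g' = x' by group]
        rw [mem_cent_conj_iff, hcz z hz hz1] at h1
        rwa [show g⁻¹ * g' * x' * g'⁻¹ * g = g⁻¹ * (g' * x' * g'⁻¹) * g by group]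
      · calc x' = g'⁻¹ * g * (g⁻¹ * g' * x' * g'⁻¹ * g) * g⁻¹ * g' := by group
          _ = 1 := by rw [e']; group

/-- The number of elements conjugate into `A`. -/
theorem Ctx.card_conjSet_a :
    Nat.card (conjSet A) = N.index * (Nat.card A - 1) ∧
      ∀ y ∈ conjSet A, ¬ IsReal y := by
  obtain ⟨t, htA, ht⟩ := h.data.exists_inv
  refine ⟨?_, ?_⟩
  · have h1 := card_conjSet A N (fun g z hz hz1 hgz => h.data.mem_n_of_cent (h.cent_a hz hz1)
      (h.cent_a hgz fun e => hz1 (by
        calc z = g⁻¹ * (g * z * g⁻¹) * g := by group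
          _ = 1 := by rw [e]; group)))
      (fun m hm z hz => h.data.conj_mem hm hz)
    rw [h.card_n, h.card_group, mul_assoc (p * Nat.card A), mul_comm (Nat.card (conjSet A))] at h1
    exact Nat.eq_of_mul_eq_mul_left (Nat.mul_pos h.data.prime.pos Nat.card_pos) h1
  · rintro _ ⟨g, z, hz, -, rfl⟩ ⟨hy1, hyo, u, hu, hinv⟩
    obtain ⟨-, ho, -⟩ := h.real_facts hy1 hyo hu hinv
    have hmem : g * t * g⁻¹ ∈ Subgroup.centralizer ({g * z * g⁻¹} : Set G) := by
      rw [mem_cent_conj_iff, show g⁻¹ * (g * t * g⁻¹) * g = t by group,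
        Subgroup.mem_centralizer_singleton_iff]
      exact h.data.comm htA hz
    have := ho.of_dvd_nat (Subgroup.orderOf_dvd_natCard _ hmem)
    rw [orderOf_conj_eq, ht] at this
    exact absurd this (by decide)

/-- The orders. -/
theorem Ctx.orders : Nat.card A = p + 1 ∧ N.index = p + 2 := by
  classical
  haveI : Fintype G := Fintype.ofFinite G
  obtain ⟨k, _, hk, hkA, -, -, -, -⟩ := h.data.exists_k h.sn
  obtain ⟨j, hn₀, hX, hj⟩ := h.index_eq hk hkA
  obtain ⟨i, rfl⟩ := Nat.exists_eq_add_of_le hj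
  rw [show 2 * (1 + i) - 1 = 2 * i + 1 by omega] at hX
  set n₀ := Nat.card (Subgroup.centralizer ({k} : Set G)) with hn₀def
  set a := Nat.card A with ha
  set X := N.index with hXdef
  have hp := h.data.three_le
  have hgrp : Nat.card G = p * a * X := h.card_group
  have hap : p + 1 ≤ a := h.succ_le_card
  have hkR : IsReal k := (h.isReal_of_mem hk hkA).1
  obtain ⟨hc₀, hn₀3, -, hR₀⟩ := h.class_facts hkR
  set S₀ : Finset G := (conjSet (Subgroup.centralizer ({k} : Set G))).toFinset with hS₀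
  set R : Finset G := Finset.univ.filter (IsReal (G := G)) with hR
  have hsum := h.sum_cent
  rw [← hR] at hsum
  have hS₀R : S₀ ⊆ R := fun y hy => by
    simp only [hS₀, Set.mem_toFinset] at hy
    simp [hR, (hR₀ y hy).1]
  have hsum₀ : ∑ y ∈ S₀, Nat.card (Subgroup.centralizer ({y} : Set G)) = S₀.card * n₀ := by
    rw [Finset.sum_congr rfl (fun y hy => (hR₀ y (Set.mem_toFinset.mp hy)).2.1), Finset.sum_const,
      smul_eq_mul]
  have hS₀c : S₀.card * (2 * n₀) = Nat.card G * (n₀ - 1) := by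
    rw [hS₀, ← Set.ncard_eq_toFinset_card', ← Nat.card_coe_set_eq]; exact hc₀
  -- a second class
  have hne : ¬ R ⊆ S₀ := by
    intro hsub
    rw [Finset.Subset.antisymm hsub hS₀R, hsum₀] at hsum
    have e : Nat.card G * (n₀ - 1) = 2 * (p * X * (p * (X - 1))) := by
      rw [← hS₀c, ← hsum]; ring
    rw [hgrp, hX, Nat.add_sub_cancel_left] at e
    have e2 : n₀ - 1 = 2 * p * (2 * i + 1) := by
      apply Nat.eq_of_mul_eq_mul_left (Nat.mul_pos (Nat.mul_pos (by omega : 0 < p) (by omega : 0 < a)) (by omega : 0 < 1 + a * (2 * i + 1)))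
      rw [e]; ring
    rw [hn₀] at e2
    have e3 : p * (1 + i) = 1 + 2 * p * (2 * i + 1) := by omega
    nlinarith
  obtain ⟨x₁, hx₁R, hx₁⟩ := Finset.not_subset.mp hne
  simp only [hR, Finset.mem_filter, Finset.mem_univ, true_and] at hx₁R
  simp only [hS₀, Set.mem_toFinset] at hx₁
  obtain ⟨hc₁, hn₁3, -, hR₁⟩ := h.class_facts hx₁R
  set n₁ := Nat.card (Subgroup.centralizer ({x₁} : Set G)) with hn₁def
  set S₁ : Finset G := (conjSet (Subgroup.centralizer ({x₁} : Set G))).toFinset with hS₁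
  have hS₁c : S₁.card * (2 * n₁) = Nat.card G * (n₁ - 1) := by
    rw [hS₁, ← Set.ncard_eq_toFinset_card', ← Nat.card_coe_set_eq]; exact hc₁
  have hd01 : Disjoint S₀ S₁ := Finset.disjoint_left.mpr fun y hy hy' => hx₁
    ((hR₀ y (Set.mem_toFinset.mp hy)).2.2 x₁ hx₁R (Set.mem_toFinset.mp hy'))
  have h3G : ∀ {c n : ℕ}, 3 ≤ n → c * (2 * n) = Nat.card G * (n - 1) → Nat.card G ≤ 3 * c := by
    intro c n hn e
    by_contra hlt
    push Not at hlt
    have : (3 * c) * (2 * n) < Nat.card G * (3 * (n - 1)) := by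
      refine lt_of_lt_of_le ((Nat.mul_lt_mul_right (by omega)).mpr hlt) (Nat.mul_le_mul_left _ ?_)
      omega
    nlinarith
  have hS₁R : S₁ ⊆ R := fun y hy => by
    simp only [hS₁, Set.mem_toFinset] at hy
    simp [hR, (hR₁ y hy).1]
  have hunion : R = S₀ ∪ S₁ := by
    refine Finset.Subset.antisymm (fun x₂ hx₂ => ?_) (Finset.union_subset hS₀R hS₁R)
    by_contra hx₂'
    rw [Finset.mem_union, not_or] at hx₂'
    simp only [hR, Finset.mem_filter, Finset.mem_univ, true_and] at hx₂
    simp only [hS₀, hS₁, Set.mem_toFinset] at hx₂'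
    obtain ⟨hc₂, hn₂3, -, hR₂⟩ := h.class_facts hx₂
    set S₂ : Finset G := (conjSet (Subgroup.centralizer ({x₂} : Set G))).toFinset with hS₂
    have hd02 : Disjoint S₀ S₂ := Finset.disjoint_left.mpr fun y hy hy' => hx₂'.1
      ((hR₀ y (Set.mem_toFinset.mp hy)).2.2 x₂ hx₂ (Set.mem_toFinset.mp hy'))
    have hd12 : Disjoint S₁ S₂ := Finset.disjoint_left.mpr fun y hy hy' => hx₂'.2
      ((hR₁ y (Set.mem_toFinset.mp hy)).2.2 x₂ hx₂ (Set.mem_toFinset.mp hy'))
    have h1mem : (1 : G) ∉ S₀ ∪ S₁ ∪ S₂ := by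
      simp only [Finset.mem_union, hS₀, hS₁, hS₂, Set.mem_toFinset, not_or]
      exact ⟨⟨fun h' => (hR₀ _ h').1.1 rfl, fun h' => (hR₁ _ h').1.1 rfl⟩,
        fun h' => (hR₂ _ h').1.1 rfl⟩
    have hle := Finset.card_le_card (Finset.subset_univ (insert 1 (S₀ ∪ S₁ ∪ S₂)))
    rw [Finset.card_insert_of_notMem h1mem, Finset.card_union_of_disjoint
        (Finset.disjoint_union_left.mpr ⟨hd02, hd12⟩), Finset.card_union_of_disjoint hd01,
      Finset.card_univ, ← Nat.card_eq_fintype_card] at hle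
    have a0 := h3G hn₀3 hS₀c
    have a1 := h3G hn₁3 hS₁c
    have a2 := h3G hn₂3 (c := S₂.card)
      (by rw [hS₂, ← Set.ncard_eq_toFinset_card', ← Nat.card_coe_set_eq]; exact hc₂)
    omega
  have hsum₁ : ∑ y ∈ S₁, Nat.card (Subgroup.centralizer ({y} : Set G)) = S₁.card * n₁ := by
    rw [Finset.sum_congr rfl (fun y hy => (hR₁ y (Set.mem_toFinset.mp hy)).2.1), Finset.sum_const,
      smul_eq_mul]
  rw [hunion, Finset.sum_union hd01, hsum₀, hsum₁] at hsum
  have hnn : n₀ + n₁ = 2 * p * (2 * i + 1) + 2 := by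
    have e : Nat.card G * (n₀ - 1) + Nat.card G * (n₁ - 1) = 2 * (p * X * (p * (X - 1))) := by
      rw [← hS₀c, ← hS₁c, ← hsum]; ring
    rw [hgrp, hX, Nat.add_sub_cancel_left, ← Nat.mul_add] at e
    have e2 : n₀ - 1 + (n₁ - 1) = 2 * p * (2 * i + 1) := by
      apply Nat.eq_of_mul_eq_mul_left (Nat.mul_pos (Nat.mul_pos (by omega : 0 < p) (by omega : 0 < a)) (by omega : 0 < 1 + a * (2 * i + 1)))
      rw [e]; ring
    omega
  -- the inequality
  obtain ⟨hA, hAR⟩ := h.card_conjSet_a
  set SA : Finset G := (conjSet A).toFinset with hSA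
  have hSAc : SA.card = X * (a - 1) := by
    rw [hSA, ← Set.ncard_eq_toFinset_card', ← Nat.card_coe_set_eq]; exact hA
  have hdA : Disjoint (S₀ ∪ S₁) SA := Finset.disjoint_left.mpr fun y hy hy' => by
    rw [← hunion, hR, Finset.mem_filter] at hy
    exact hAR y (Set.mem_toFinset.mp hy') hy.2
  have h1mem : (1 : G) ∉ S₀ ∪ S₁ ∪ SA := by
    simp only [Finset.mem_union, hS₀, hS₁, hSA, Set.mem_toFinset, not_or]
    refine ⟨⟨fun h' => (hR₀ _ h').1.1 rfl, fun h' => (hR₁ _ h').1.1 rfl⟩, ?_⟩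
    rintro ⟨g, z, -, hz1, e⟩
    exact hz1 (by
      calc z = g⁻¹ * (g * z * g⁻¹) * g := by group
        _ = 1 := by rw [e]; group)
  have hle := Finset.card_le_card (Finset.subset_univ (insert 1 (S₀ ∪ S₁ ∪ SA)))
  rw [Finset.card_insert_of_notMem h1mem, Finset.card_union_of_disjoint hdA,
    Finset.card_union_of_disjoint hd01, hSAc, Finset.card_univ, ← Nat.card_eq_fintype_card] at hle
  have hn₁ : n₁ = p * (3 * i + 1) + 2 := by
    rw [hn₀] at hnn
    nlinarith
  have hn₀' : n₀ = p * (i + 1) := by rw [hn₀]; ring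
  have hkey : 2 * n₀ * n₁ * (X * (a - 1) + 1) ≤ p * a * X * (n₀ + n₁) := by
    obtain ⟨m₀, hm₀⟩ : ∃ m, n₀ = m + 1 := ⟨n₀ - 1, by omega⟩
    obtain ⟨m₁, hm₁⟩ : ∃ m, n₁ = m + 1 := ⟨n₁ - 1, by omega⟩
    rw [hgrp, hm₀, Nat.add_sub_cancel] at hS₀c
    rw [hgrp, hm₁, Nat.add_sub_cancel] at hS₁c
    rw [hgrp] at hle
    rw [hm₀, hm₁]
    have := Nat.mul_le_mul_left (2 * (m₀ + 1) * (m₁ + 1)) hle
    nlinarith [this, congrArg (fun z => z * (m₁ + 1)) hS₀c, congrArg (fun z => z * (m₀ + 1)) hS₁c]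
  rw [hn₀', hn₁] at hkey
  obtain ⟨hi0, ha'⟩ := arith hp hap hX hkey
  refine ⟨ha', ?_⟩
  rw [hX, hi0, ha']
  ring

end Cfsg.Agent.FGS75.SelfNorm
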