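import Cfsg.Agent.FGS75.SelfNorm.Reverse
import Cfsg.Agent.Spec.PSLTwoClass
import Cfsg.Agent.Linear.SmallIso
import Cfsg.Agent.Stability.SL2Basic

/-!
`PSL₂(2ⁿ)` with `2ⁿ - 1` prime has only self-normalizing non-abelian subgroups.
-/

set_option autoImplicit false

open scoped MatrixGroups

namespace Cfsg.Agent.FGS75.SelfNorm

theorem sn_of_equiv {G : Type*} [Group G] [Finite G] [IsSimpleGroup G] {n : ℕ} (hn : 2 ≤ n)
    (hp : (2 ^ n - 1).Prime)
    (e : G ≃* Matrix.ProjectiveSpecialLinearGroup (Fin 2) (GaloisField 2 n)) : SN G := by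
  classical
  haveI : Fintype (GaloisField 2 n) := Fintype.ofFinite _
  have hq : Fintype.card (GaloisField 2 n) = 2 ^ n := by
    rw [← Nat.card_eq_fintype_card, GaloisField.card 2 n (by omega)]
  have heven : Even (Fintype.card (GaloisField 2 n)) := hq ▸ Nat.even_pow.mpr ⟨even_two, by omega⟩
  have h2 : (2 : GaloisField 2 n) = 0 :=
    Spec.Two.two_eq_zero_iff.mpr (even_iff_two_dvd.mp heven)
  let π := Spec.Two.π (F := GaloisField 2 n)
  have hπ : Function.Bijective π := by
    refine ⟨fun a b h => ?_, Spec.Two.π_surjective⟩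
    obtain ⟨c, hc, he⟩ := Spec.Two.π_eq_iff.mp h
    rw [Spec.Two.eq_one_of_sq h2 hc, one_smul] at he
    exact Subtype.ext he.symm
  let f : G ≃* SL(2, GaloisField 2 n) := e.trans (MulEquiv.ofBijective π hπ).symm
  refine Rev.sn (p := 2 ^ n - 1) ?_
  have hq1 : 2 ^ n - 1 + 1 = 2 ^ n := Nat.sub_add_cancel Nat.one_le_two_pow
  refine ⟨hp, ⟨n, hn, hq1⟩, ?_, ?_, ?_⟩
  · rw [Nat.card_congr e.toEquiv, Linear.card_PSL_two_of_even heven, hq, hq1,
      show 2 ^ n - 1 + 2 = 2 ^ n + 1 by omega]
  · intro x a b hx hax hbx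
    apply f.injective
    rw [map_mul, map_mul]
    refine Stability.SL2.commute_of_commute (g := f x) ?_ ?_ ?_
    · intro hs
      refine hx (f.injective ?_)
      have h1 : f x 0 0 = 1 := Spec.Two.eq_one_of_sq h2 (by rw [pow_two]; exact hs.sq)
      obtain ⟨o1, o2, o3, o4⟩ := Stability.SL2.one_entries (F := GaloisField 2 n)
      rw [map_one]
      exact Stability.SL2.ext4 (h1.trans o1.symm) (hs.1.trans o2.symm) (hs.2.1.trans o3.symm)
        ((hs.2.2.symm.trans h1).trans o4.symm)
    · rw [← map_mul, ← map_mul, hax]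
    · rw [← map_mul, ← map_mul, hbx]
  · intro x
    suffices ∃ g, g * f x * g⁻¹ = (f x)⁻¹ by
      obtain ⟨g, hg⟩ := this
      exact ⟨f.symm g, f.injective (by simpa using hg)⟩
    obtain ⟨i1, -, -, i4⟩ := Stability.SL2.inv_entries (f x)
    by_cases ht : (f x : Matrix (Fin 2) (Fin 2) (GaloisField 2 n)).trace = 0
    · refine ⟨1, ?_⟩
      rw [one_mul, inv_one, mul_one, eq_inv_iff_mul_eq_one]
      have hd := Stability.SL2.det_eq (f x)
      rw [Matrix.trace_fin_two] at ht
      obtain ⟨o1, o2, o3, o4⟩ := Stability.SL2.one_entries (F := GaloisField 2 n)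
      refine Stability.SL2.ext4 ?_ ?_ ?_ ?_ <;> simp only [Stability.SL2.mul_entry, o1, o2, o3, o4]
      · linear_combination (f x 0 0) * ht - hd - h2
      · linear_combination (f x 0 1) * ht
      · linear_combination (f x 1 0) * ht
      · linear_combination (f x 1 1) * ht - hd - h2
    · refine Spec.Two.exists_conj _ _ ?_ ?_
      · rw [Matrix.trace_fin_two, Matrix.trace_fin_two, i1, i4, add_comm]
      · intro h
        refine ht ((pow_eq_zero_iff two_ne_zero).mp (h.trans ?_))
        linear_combination (2 : GaloisField 2 n) * h2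

end Cfsg.Agent.FGS75.SelfNorm
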