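import Cfsg.Agent.FGS75.SelfNorm.Main
import Cfsg.Agent.FGS75.SelfNorm.ReversePSL

/-!
S4073 relative to the odd order theorem.
-/

set_option autoImplicit false

namespace Cfsg.Agent.FGS75.SelfNorm

universe u

theorem sn_iff {G : Type u} [Group G] [Finite G] [IsSimpleGroup G] (hna : ¬ IsMulCommutative G)
    (hFT : ∀ (X : Type u) [Group X] [Finite X], Odd (Nat.card X) → Group.IsSolvable X) :
    SN G ↔ ∃ n : ℕ, 2 ≤ n ∧ (2 ^ n - 1).Prime ∧
      Nonempty (G ≃* Matrix.ProjectiveSpecialLinearGroup (Fin 2) (GaloisField 2 n)) := by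
  refine ⟨fun h => forward h hna ?_ hFT, ?_⟩
  · by_contra h2
    haveI := hFT G (Nat.odd_iff.mpr (Nat.two_dvd_ne_zero.mp h2))
    exact hna ⟨⟨fun a b => IsSimpleGroup.comm_iff_isSolvable.mpr inferInstance a b⟩⟩
  · rintro ⟨n, hn, hp, ⟨e⟩⟩
    exact sn_of_equiv hn hp e

end Cfsg.Agent.FGS75.SelfNorm
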