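import Cfsg.Agent.FGS75.SelfNorm.Count
import Cfsg.Agent.SmallGroups.PSLRecognition

/-!
A simple group of even order whose non-abelian subgroups are self-normalizing is `PSL₂(2ⁿ)` with
`2ⁿ - 1` prime.
-/

set_option autoImplicit false

open scoped commutatorElement Pointwise

namespace Cfsg.Agent.FGS75.SelfNorm

universe u

open Cfsg.Agent.PermB in
theorem forward {G : Type u} [Group G] [Finite G] [IsSimpleGroup G] (hG : SN G)
    (hna : ¬ IsMulCommutative G) (heven : 2 ∣ Nat.card G)
    (hFT : ∀ (X : Type u) [Group X] [Finite X], Odd (Nat.card X) → Group.IsSolvable X) :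
    ∃ n : ℕ, 2 ≤ n ∧ (2 ^ n - 1).Prime ∧
      Nonempty (G ≃* Matrix.ProjectiveSpecialLinearGroup (Fin 2) (GaloisField 2 n)) := by
  classical
  haveI : Fact (Nat.Prime 2) := ⟨Nat.prime_two⟩
  obtain ⟨A, N, p, hD⟩ := exists_data hG hna heven hFT
  have h : Ctx A N p := ⟨hG, hna, heven, hD⟩
  obtain ⟨hA, hX⟩ := h.orders
  have hp := hD.three_le
  -- `A` consists of 1 and involutions
  have hexp : ∀ a ∈ A, a ^ 2 = 1 := by
    have hins : insert (1 : G) {s : G | s ∈ A ∧ orderOf s = 2} = (A : Set G) := by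
      refine Set.eq_of_subset_of_ncard_le ?_ ?_ (Set.toFinite _)
      · rintro s (rfl | hs)
        · exact one_mem A
        · exact hs.1
      · rw [Set.ncard_insert_of_notMem ?_ (Set.toFinite _), hD.card_inv, ← Nat.card_coe_set_eq,
          SetLike.coe_sort_coe, hA]
        intro hs
        have := hs.2
        rw [orderOf_one] at this
        norm_num at this
    intro a ha
    rw [← SetLike.mem_coe, ← hins] at ha
    rcases ha with rfl | ha
    · exact one_pow 2
    · exact orderOf_dvd_iff_pow_eq_one.mp ha.2.dvd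
  have hA2 : IsPGroup 2 A := fun a => ⟨1, Subtype.ext (by
    rw [pow_one, SubmonoidClass.coe_pow, hexp a a.2]; rfl)⟩
  obtain ⟨r, hr⟩ := IsPGroup.iff_card.mp hA2
  obtain ⟨P, hP⟩ := hA2.exists_le_sylow
  obtain ⟨t, htA, ht⟩ := hD.exists_inv
  have hPA : (P : Subgroup G) = A := by
    refine le_antisymm (fun s hs => ?_) hP
    rw [← hD.cent t htA ht, Subgroup.mem_centralizer_singleton_iff]
    exact comm_apply (sylow_two_comm hG hna heven P) hs (hP htA)
  have hPN : Subgroup.normalizer ((P : Subgroup G) : Set G) = N := by rw [hPA, hD.n_eq]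
  have hr2 : 2 ≤ r := by
    by_contra hlt
    have : 2 ^ r ≤ 2 ^ 1 := Nat.pow_le_pow_right (by norm_num) (by omega)
    omega
  refine ⟨r, hr2, by rw [← hr, hA, Nat.add_sub_cancel]; exact hD.prime, ?_⟩
  set q := p + 1 with hq
  have hn : Nat.card (Sylow 2 G) = q + 1 := by
    rw [Sylow.card_eq_index_normalizer P]
    show (Subgroup.normalizer ((P : Subgroup G) : Set G)).index = q + 1
    rw [hPN, hX]
  have hPcard : Nat.card (P : Subgroup G) = q := by rw [hPA, hA]
  have hfixN : ∀ (R : Sylow 2 G) (g : G), g • P = R → ∀ x : G, x • R = R ↔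
      x ∈ N.map (MulAut.conj g).toMonoidHom := by
    intro R g hg x
    rw [← hg, ← mul_smul]
    constructor
    · intro hx
      refine ⟨g⁻¹ * (x * g), ?_, by
        show g * (g⁻¹ * (x * g)) * g⁻¹ = x
        group⟩
      rw [← hPN]
      exact Sylow.smul_eq_iff_mem_normalizer.mp (by rw [mul_smul, hx, inv_smul_smul])
    · rintro ⟨m, hm, rfl⟩
      show (g * m * g⁻¹ * g) • P = g • P
      rw [show g * m * g⁻¹ * g = g * m by group, mul_smul,
        Sylow.smul_eq_iff_mem_normalizer.mpr (hPN.symm ▸ hm : m ∈ Subgroup.normalizer ((P : Subgroup G) : Set G))]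
  obtain ⟨g, hg⟩ : ∃ g : G, g ∉ N := by
    by_contra h'
    push Not at h'
    exact hD.n_ne_top (eq_top_iff.mpr fun x _ => h' x)
  have hne : ∀ g : G, g ∉ N → g • P ≠ P := fun g hg e =>
    hg (hPN ▸ Sylow.smul_eq_iff_mem_normalizer.mp e)
  set Q := g • P with hQ
  have hPQ : Q ≠ P := hne g hg
  have hPfix : ∀ x : G, x • P = P ↔ x ∈ N := fun x => by
    rw [← hPN]; exact Sylow.smul_eq_iff_mem_normalizer
  have hreg : ∀ u ∈ (P : Subgroup G), ∀ R : Sylow 2 G, R ≠ P → u • R = R → u = 1 := by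
    intro u hu R hR huR
    obtain ⟨g', hg'⟩ := MulAction.exists_smul_eq G P R
    have hg'N : g' ∉ N := fun h' => hR (by rw [← hg', (hPfix g').mpr h'])
    rw [hPA] at hu
    exact (h.inter hg'N).2 u ⟨hD.a_le hu, (hfixN R g' hg' u).mp huR⟩ hu
  have hfix : ∀ x : G, x • P = P → x • Q = Q → x ≠ 1 →
      ∀ u ∈ (P : Subgroup G), x * u = u * x → u = 1 := by
    intro x hxP hxQ hx1 u hu hxu
    rw [hPA] at hu
    have hxN := (hPfix x).mp hxP
    have hxA : x ∉ A := fun hxA => hx1 ((h.inter hg).2 x ⟨hxN, (hfixN Q g rfl x).mp hxQ⟩ hxA)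
    exact hD.fpf hG hxN hxA hu hxu
  obtain ⟨hz, hK⟩ := SmallGroups.zData_sylow hna heven hPQ (by rw [hn, hPcard]) hreg hfix
  have hH : Nat.card (ZData.H2 (G := G) P Q) = q - 1 := by
    rw [hq, Nat.add_sub_cancel, ← (h.inter hg).1]
    refine Nat.card_congr (Equiv.subtypeEquivRight fun x => ?_)
    rw [ZData.mem_H2, hPfix, hfixN Q g rfl x, Subgroup.mem_inf]
  have hqeven : Even q := by
    rw [← hA, hr]
    exact (Nat.even_pow.mpr ⟨even_two, by omega⟩)
  haveI : Fintype (GaloisField 2 r) := Fintype.ofFinite _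
  exact SmallGroups.nonempty_equiv_psl_even hna hPQ hz hK hqeven (by omega) hn hH
    (by rw [← Nat.card_eq_fintype_card, GaloisField.card 2 r (by omega), ← hr, hA])

end Cfsg.Agent.FGS75.SelfNorm
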